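import Cfsg.Agent.H192.Lang

/-!
# S5917, part II.3: Lang's theorem for the orthogonal matrices of size 3 in characteristic 2 (helper531)

* `lang_o3_gen` : `A Aᵀ = 1` implies `Y^(2) = Y A` for some `Y` with `Y Yᵀ = 1`, over an algebraically closed field of
  characteristic 2; `lang_o3` : over the algebraic closure of the field with two elements.
-/

set_option autoImplicit false

namespace Cfsg.Agent.H531.L34

open Matrix

set_option synthInstance.maxHeartbeats 400000 in
set_option synthInstance.maxSize 2000 in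
/-- symmetric invertible matrices of size 3 over the field with two elements are congruent to the identity -/
theorem key : ∀ a b c d e f : ZMod 2, a * (d * f - e * e) - b * (b * f - e * c) + c * (b * e - d * c) ≠ 0 →
    ∃ u0 u1 u2 u3 u4 u5 u6 u7 u8 : ZMod 2, u0 * u0 + u1 * u1 + u2 * u2 = a ∧ u0 * u3 + u1 * u4 + u2 * u5 = b ∧
      u0 * u6 + u1 * u7 + u2 * u8 = c ∧ u3 * u3 + u4 * u4 + u5 * u5 = d ∧ u3 * u6 + u4 * u7 + u5 * u8 = e ∧
      u6 * u6 + u7 * u7 + u8 * u8 = f := by decide +kernel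

theorem sq_zmod : ∀ a : ZMod 2, a ^ 2 = a := by decide

theorem exists_U {s : Matrix (Fin 3) (Fin 3) (ZMod 2)} (hs : sᵀ = s) (hd : s.det ≠ 0) :
    ∃ U : Matrix (Fin 3) (Fin 3) (ZMod 2), U * Uᵀ = s := by
  have h10 : s 1 0 = s 0 1 := congrFun (congrFun hs 0) 1
  have h20 : s 2 0 = s 0 2 := congrFun (congrFun hs 0) 2
  have h21 : s 2 1 = s 1 2 := congrFun (congrFun hs 1) 2
  obtain ⟨u0, u1, u2, u3, u4, u5, u6, u7, u8, e1, e2, e3, e4, e5, e6⟩ := key (s 0 0) (s 0 1) (s 0 2) (s 1 1) (s 1 2) (s 2 2) (by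
    intro h0
    apply hd
    rw [det_fin_three, h10, h20, h21, ← h0]
    ring)
  refine ⟨!![u0, u1, u2; u3, u4, u5; u6, u7, u8], ?_⟩
  ext i j
  rw [mul_apply, Fin.sum_univ_three]
  fin_cases i <;> fin_cases j <;>
    simp [h10, h20, h21, ← e1, ← e2, ← e3, ← e4, ← e5, ← e6] <;> ring

variable {K : Type*} [Field K] [IsAlgClosed K] [CharP K 2]

/-- **Lang's theorem for orthogonal matrices of size 3.** -/
theorem lang_o3_gen {A : SpecialLinearGroup (Fin 3) K} (h : A.1 * A.1.transpose = 1) :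
    ∃ Y : SpecialLinearGroup (Fin 3) K, Y.1 * Y.1.transpose = 1 ∧ ∀ i j, Y.1 i j ^ 2 = (Y.1 * A.1) i j := by
  classical
  have hp : Fact (Nat.Prime 2) := ⟨Nat.prime_two⟩
  obtain ⟨g, hg⟩ : ∃ g : GL (Fin 3) K, g.1 = A.1 := ⟨A.toGL, rfl⟩
  obtain ⟨x, hx⟩ := Cfsg.Agent.H192.lang_gl 2 1 le_rfl g
  obtain ⟨y, hy⟩ : ∃ y : GL (Fin 3) K, y = x⁻¹ := ⟨_, rfl⟩
  have h1 : GeneralLinearGroup.map (iterateFrobenius K 2 1) y = y * g := by
    rw [hx, hy, map_inv, inv_mul_cancel_left]
  have h2 : ∀ i j, y.1 i j ^ 2 = (y.1 * A.1) i j := by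
    intro i j
    have h3 := congrArg (fun z : GL (Fin 3) K => z.1 i j) h1
    simp only [Units.val_mul, hg] at h3
    rw [← h3]
    change _ = iterateFrobenius K 2 1 (y.1 i j)
    rw [iterateFrobenius_def, pow_one]
  -- the Gram matrix
  obtain ⟨S, hS⟩ : ∃ S, S = y.1 * y.1ᵀ := ⟨_, rfl⟩
  have hym : y.1.map (frobenius K 2) = y.1 * A.1 := by
    ext i j
    rw [map_apply, frobenius_def, h2]
  have hSm : S.map (frobenius K 2) = S := by
    rw [hS, Matrix.map_mul, transpose_map, hym, transpose_mul, Matrix.mul_assoc, ← Matrix.mul_assoc A.1, h,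
      Matrix.one_mul]
  have hS2 : ∀ i j, S i j ^ 2 = S i j := by
    intro i j
    have h3 := congrFun (congrFun hSm i) j
    rwa [map_apply, frobenius_def] at h3
  let f : ZMod 2 →+* K := ZMod.castHom dvd_rfl K
  have h3 : ∀ i j, ∃ a : ZMod 2, f a = S i j := by
    intro i j
    have h4 : S i j * (S i j - 1) = 0 := by
      have := hS2 i j
      linear_combination this
    rcases mul_eq_zero.1 h4 with h5 | h5
    · exact ⟨0, by rw [map_zero, h5]⟩
    · exact ⟨1, by rw [map_one, sub_eq_zero.1 h5]⟩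
  choose s hs using h3
  obtain ⟨s', hs'⟩ : ∃ s' : Matrix (Fin 3) (Fin 3) (ZMod 2), s' = Matrix.of s := ⟨_, rfl⟩
  have hsS : s'.map f = S := by
    ext i j
    rw [map_apply, hs']
    exact hs i j
  have hst : s'ᵀ = s' := by
    have hinj : Function.Injective f := f.injective
    ext i j
    apply hinj
    have h4 : Sᵀ = S := by rw [hS, transpose_mul, transpose_transpose]
    have h5 := congrFun (congrFun h4 i) j
    rw [← hsS, transpose_apply, map_apply, map_apply] at h5
    exact h5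
  have hsd : s'.det ≠ 0 := by
    intro h0
    have h4 : S.det = 0 := by
      rw [← hsS, ← RingHom.mapMatrix_apply, ← RingHom.map_det, h0, map_zero]
    rw [hS, det_mul, det_transpose] at h4
    have h5 : y.1.det ≠ 0 := by
      have := (GeneralLinearGroup.det y).ne_zero
      exact this
    exact mul_ne_zero h5 h5 h4
  obtain ⟨U, hU⟩ := exists_U hst hsd
  have hUd : IsUnit U.det := by
    rw [isUnit_iff_ne_zero]
    intro h0
    apply hsd
    rw [← hU, det_mul, h0, zero_mul]
  obtain ⟨W, hW⟩ : ∃ W, W = U⁻¹ := ⟨_, rfl⟩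
  have hWU : W * U = 1 := by rw [hW, nonsing_inv_mul U hUd]
  have hUW : Uᵀ * Wᵀ = 1 := by rw [← transpose_mul, hWU, transpose_one]
  obtain ⟨Y, hY⟩ : ∃ Y, Y = W.map f * y.1 := ⟨_, rfl⟩
  have hYY : Y * Yᵀ = 1 := by
    have h4 : (W * s' * Wᵀ).map f = 1 := by
      rw [← hU, Matrix.mul_assoc, Matrix.mul_assoc, hUW, Matrix.mul_one, hWU, Matrix.map_one f (map_zero f) (map_one f)]
    rw [Matrix.map_mul, Matrix.map_mul, hsS, hS] at h4
    rw [hY, transpose_mul, ← transpose_map, ← h4]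
    simp only [Matrix.mul_assoc]
  have hY2 : Y.map (frobenius K 2) = Y * A.1 := by
    have h4 : (W.map f).map (frobenius K 2) = W.map f := by
      ext i j
      rw [map_apply, map_apply, frobenius_def, ← map_pow]
      congr 1
      exact sq_zmod _
    rw [hY, Matrix.map_mul, h4, hym, Matrix.mul_assoc]
  have hdet : Y.det = 1 := by
    have h4 := congrArg det hYY
    rw [det_mul, det_transpose, det_one] at h4
    have h5 : (Y.det - 1) ^ 2 = 0 := by
      have h2' : (2 : K) = 0 := CharTwo.two_eq_zero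
      linear_combination h4 + (1 - Y.det) * h2'
    exact sub_eq_zero.1 (pow_eq_zero_iff two_ne_zero |>.1 h5)
  refine ⟨⟨Y, hdet⟩, hYY, fun i j => ?_⟩
  have h4 := congrFun (congrFun hY2 i) j
  rwa [map_apply, frobenius_def] at h4

/-- over the algebraic closure of the field with two elements -/
theorem lang_o3 {A : SpecialLinearGroup (Fin 3) (AlgebraicClosure (ZMod 2))} (h : A.1 * A.1.transpose = 1) :
    ∃ Y : SpecialLinearGroup (Fin 3) (AlgebraicClosure (ZMod 2)), Y.1 * Y.1.transpose = 1 ∧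
      ∀ i j, Y.1 i j ^ 2 = (Y.1 * A.1) i j :=
  haveI : CharP (AlgebraicClosure (ZMod 2)) 2 :=
    charP_of_injective_algebraMap (algebraMap (ZMod 2) (AlgebraicClosure (ZMod 2))).injective 2
  lang_o3_gen h

end Cfsg.Agent.H531.L34
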